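import Cfsg.Agent.H322.Cent.Rest

/-!
# The exceptional groups; the final case distinction
-/

set_option autoImplicit false

namespace Cfsg.Agent.H322.Cent

open Matrix Cfsg.Agent.OrdDiv

universe u

theorem dvd_of_three {q e : ℕ} (h3 : 3 ∣ q) (he : 3 ≤ e) : 27 ∣ q ^ e := by
  rw [show (27 : ℕ) = 3 ^ 3 by norm_num]
  exact (pow_dvd_pow_of_dvd h3 3).trans (pow_dvd_pow q he)

theorem dvd_of_three' {q e : ℕ} (h3 : 3 ∣ q) (he : 4 ≤ e) : 81 ∣ q ^ e := by
  rw [show (81 : ℕ) = 3 ^ 4 by norm_num]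
  exact (pow_dvd_pow_of_dvd h3 4).trans (pow_dvd_pow q he)

theorem a27' {q : ℕ} (h3 : ¬ 3 ∣ q) : 27 ∣ (q ^ 2 - 1) * (q ^ 12 - 1) := by
  refine (a27 h3).trans (mul_dvd_mul_left _ ?_)
  have h1 := Nat.sub_dvd_pow_sub_pow (q ^ 6) 1 2
  rwa [one_pow, ← pow_mul] at h1

theorem exc (T : OrderTable.{u}) {G : Type u} [Group G] [Finite G] (h : Q G) (hE : IsExceptionalLieType G) : False := by
  have h27 := h.not27
  have h9 := h.nine_dvd
  rcases hE with hE | hE | hE | hE | hE | hE | hE | hE | hE | hE | hE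
  · obtain ⟨F, _, _, hq, ⟨e⟩⟩ := hE
    rw [Nat.card_congr e.toEquiv, T.g2 F] at h27
    apply h27
    generalize Fintype.card F = q
    by_cases h3 : 3 ∣ q
    · exact ((dvd_of_three h3 (by norm_num)).mul_right _).mul_right _
    · rw [mul_assoc]
      exact (a27 h3).mul_left _
  · obtain ⟨F, _, _, ⟨e⟩⟩ := hE
    rw [Nat.card_congr e.toEquiv, T.f4 F _ rfl] at h27
    apply h27
    generalize Fintype.card F = q
    by_cases h3 : 3 ∣ q
    · simp only [mul_assoc]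
      exact (dvd_of_three h3 (by norm_num)).mul_right _
    · obtain ⟨w, hw⟩ := a27 h3
      have : q ^ 24 * (q ^ 2 - 1) * (q ^ 6 - 1) * (q ^ 8 - 1) * (q ^ 12 - 1) =
        ((q ^ 2 - 1) * (q ^ 6 - 1)) * (q ^ 24 * (q ^ 8 - 1) * (q ^ 12 - 1)) := by ring
      rw [this, hw]
      exact (Dvd.intro w rfl).mul_right _
  · obtain ⟨F, _, _, ⟨e⟩⟩ := hE
    rw [Nat.card_congr e.toEquiv] at h27
    apply h27
    apply of_gcd_three (Nat.gcd_dvd_left 3 (Fintype.card F - 1))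
    rw [T.e6 F _ rfl]
    generalize Fintype.card F = q
    by_cases h3 : 3 ∣ q
    · simp only [mul_assoc]
      exact (dvd_of_three' h3 (by norm_num)).mul_right _
    · have : q ^ 36 * (q ^ 2 - 1) * (q ^ 5 - 1) * (q ^ 6 - 1) * (q ^ 8 - 1) * (q ^ 9 - 1) * (q ^ 12 - 1) =
        ((q ^ 2 - 1) * (q ^ 6 - 1)) * (q ^ (2 * 4) - 1) * (q ^ 36 * (q ^ 5 - 1) * (q ^ 9 - 1) * (q ^ 12 - 1)) := by ring
      rw [this, show (81 : ℕ) = 27 * 3 by norm_num]
      exact (mul_dvd_mul (a27 h3) (a3 h3 4)).mul_right _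
  · obtain ⟨F, _, _, ⟨e⟩⟩ := hE
    rw [Nat.card_congr e.toEquiv] at h27
    apply h27
    apply of_gcd (g := Nat.gcd 2 (Fintype.card F - 1))
      (Nat.Coprime.coprime_dvd_right (Nat.gcd_dvd_left _ _) (by norm_num))
    rw [T.e7 F _ rfl]
    generalize Fintype.card F = q
    by_cases h3 : 3 ∣ q
    · simp only [mul_assoc]
      exact (dvd_of_three h3 (by norm_num)).mul_right _
    · have : q ^ 63 * (q ^ 2 - 1) * (q ^ 6 - 1) * (q ^ 8 - 1) * (q ^ 10 - 1) * (q ^ 12 - 1) * (q ^ 14 - 1) * (q ^ 18 - 1) =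
        ((q ^ 2 - 1) * (q ^ 6 - 1)) * (q ^ 63 * (q ^ 8 - 1) * (q ^ 10 - 1) * (q ^ 12 - 1) * (q ^ 14 - 1) * (q ^ 18 - 1)) := by
          ring
      rw [this]
      exact (a27 h3).mul_right _
  · obtain ⟨F, _, _, ⟨e⟩⟩ := hE
    rw [Nat.card_congr e.toEquiv, T.e8 F _ rfl] at h27
    apply h27
    generalize Fintype.card F = q
    by_cases h3 : 3 ∣ q
    · simp only [mul_assoc]
      exact (dvd_of_three h3 (by norm_num)).mul_right _
    · have : q ^ 120 * (q ^ 2 - 1) * (q ^ 8 - 1) * (q ^ 12 - 1) * (q ^ 14 - 1) * (q ^ 18 - 1) * (q ^ 20 - 1) *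
          (q ^ 24 - 1) * (q ^ 30 - 1) = ((q ^ 2 - 1) * (q ^ 12 - 1)) * (q ^ 120 * (q ^ 8 - 1) * (q ^ 14 - 1) *
          (q ^ 18 - 1) * (q ^ 20 - 1) * (q ^ 24 - 1) * (q ^ 30 - 1)) := by ring
      rw [this]
      exact (a27' h3).mul_right _
  · obtain ⟨F, _, _, q, hq, hF, ⟨e⟩⟩ := hE
    rw [Nat.card_congr e.toEquiv] at h27
    apply h27
    apply of_gcd_three (Nat.gcd_dvd_left 3 (q + 1))
    rw [T.te6 F q hq hF]
    by_cases h3 : 3 ∣ q
    · simp only [mul_assoc]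
      exact (dvd_of_three' h3 (by norm_num)).mul_right _
    · have : q ^ 36 * (q ^ 2 - 1) * (q ^ 5 + 1) * (q ^ 6 - 1) * (q ^ 8 - 1) * (q ^ 9 + 1) * (q ^ 12 - 1) =
        ((q ^ 2 - 1) * (q ^ 6 - 1)) * (q ^ (2 * 4) - 1) * (q ^ 36 * (q ^ 5 + 1) * (q ^ 9 + 1) * (q ^ 12 - 1)) := by ring
      rw [this, show (81 : ℕ) = 27 * 3 by norm_num]
      exact (mul_dvd_mul (a27 h3) (a3 h3 4)).mul_right _
  · obtain ⟨F, _, _, q, hq, hF, ⟨e⟩⟩ := hE
    rw [Nat.card_congr e.toEquiv, T.td4 F q hq hF] at h27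
    apply h27
    by_cases h3 : 3 ∣ q
    · simp only [mul_assoc]
      exact (dvd_of_three h3 (by norm_num)).mul_right _
    · have : q ^ 12 * (q ^ 2 - 1) * (q ^ 6 - 1) * (q ^ 8 + q ^ 4 + 1) =
        ((q ^ 2 - 1) * (q ^ 6 - 1)) * (q ^ 12 * (q ^ 8 + q ^ 4 + 1)) := by ring
      rw [this]
      exact (a27 h3).mul_right _
  · obtain ⟨F, _, _, m, hm, hF, ⟨e⟩⟩ := hE
    rw [Nat.card_congr e.toEquiv, T.sz F m hm hF] at h9
    have h3 : (2 : ℕ) ^ (2 * m + 1) % 3 = 2 := by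
      rw [pow_succ, pow_mul, Nat.mul_mod, Nat.pow_mod]
      norm_num
    generalize (2 : ℕ) ^ (2 * m + 1) = q at *
    have h4 : 3 ∣ q ^ 2 * (q - 1) * (q ^ 2 + 1) := dvd_trans (by norm_num) h9
    obtain ⟨k, rfl⟩ : ∃ k, q = 3 * k + 2 := ⟨q / 3, by omega⟩
    rw [show 3 * k + 2 - 1 = 3 * k + 1 by omega] at h4
    have h5 := Nat.mod_eq_zero_of_dvd h4
    rw [Nat.mul_mod, Nat.mul_mod ((3 * k + 2) ^ 2), Nat.add_mod ((3 * k + 2) ^ 2), Nat.pow_mod, h3,
      show (3 * k + 1) % 3 = 1 by omega] at h5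
    norm_num at h5
  · obtain ⟨F, _, _, m, hm, hF, ⟨e⟩⟩ := hE
    rw [Nat.card_congr e.toEquiv, T.ree F m hm hF] at h27
    apply h27
    simp only [mul_assoc]
    exact (dvd_of_three (dvd_pow_self 3 (by omega)) le_rfl).mul_right _
  · obtain ⟨F, _, _, m, hm, hF, ⟨e⟩⟩ := hE
    rw [Nat.card_congr e.toEquiv, T.tf4 F m hm hF] at h27
    apply h27
    have h3 : (2 : ℕ) ^ (2 * m + 1) % 3 = 2 := by
      rw [pow_succ, pow_mul, Nat.mul_mod, Nat.pow_mod]
      norm_num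
    generalize (2 : ℕ) ^ (2 * m + 1) = q at *
    have hq3 : ¬ 3 ∣ q := by omega
    have h4 : 9 ∣ q ^ 3 + 1 := by
      obtain ⟨k, rfl⟩ : ∃ k, q = 3 * k + 2 := ⟨q / 3, by omega⟩
      exact ⟨3 * k ^ 3 + 6 * k ^ 2 + 4 * k + 1, by ring⟩
    have : q ^ 12 * (q - 1) * (q ^ 3 + 1) * (q ^ 4 - 1) * (q ^ 6 + 1) =
      ((q ^ 3 + 1) * (q ^ (2 * 2) - 1)) * (q ^ 12 * (q - 1) * (q ^ 6 + 1)) := by ring
    rw [this, show (27 : ℕ) = 9 * 3 by norm_num]
    exact (mul_dvd_mul h4 (a3 hq3 2)).mul_right _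
  · rw [T.spor G (.tits, 17971200) (by decide) hE] at h27
    norm_num at h27

theorem spor_of (T : OrderTable.{u}) {G : Type u} [Group G] [Finite G] (h : Q G) (x : Grp × ℕ) (hx : x ∈ OrdDiv.spor)
    (hr : Real x.1 G) (hb : (decide (27 ∣ x.2) || !decide (9 ∣ x.2)) = true) : False := by
  have h27 := h.not27
  have h9 := h.nine_dvd
  rw [T.spor G x hx hr] at h27 h9
  simp [h27, h9] at hb

/-- **The list.** -/
theorem final (T : OrderTable.{u}) {G : Type u} [Group G] [Finite G] (hk : IsKnownSimple' G) (h : Q G)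
    (hM11 : ¬ Spor.IsoM11 G) (hM23 : ¬ Spor.IsoM23 G) (hHS : ¬ Spor.IsoHS G) :
    Nonempty (G ≃* ↥(alternatingGroup (Fin 6))) ∨ Nonempty (G ≃* ↥(alternatingGroup (Fin 7))) ∨
      (∃ (F : Type) (_ : Field F) (_ : Fintype F), (Fintype.card F = 4 ∨ Fintype.card F = 7) ∧
        Nonempty (G ≃* Matrix.ProjectiveSpecialLinearGroup (Fin 3) F)) ∨
      (∃ (F : Type) (_ : Field F) (_ : Fintype F), Fintype.card F = 25 ∧ Nonempty (G ≃* Cfsg.PSU 3 F 5)) ∨
      Cfsg.Spor.IsoM22 G := by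
  rcases hk with hk | hk | hk | hk | hk | hk | hk | hk | hk | hk
  · exfalso
    have hp : (Nat.card G).Prime := hk
    obtain ⟨k, hk⟩ := h.nine_dvd
    rw [hk, show 9 * k = 3 * (3 * k) by ring] at hp
    have := (Nat.prime_mul_iff.1 hp)
    omega
  · obtain ⟨n, hn, ⟨e⟩⟩ := hk
    rcases alt hn (h.of_equiv e) with rfl | rfl
    · exact Or.inl ⟨e⟩
    · exact Or.inr (Or.inl ⟨e⟩)
  · obtain ⟨F, _, _, n, hn, hn2, ⟨e⟩⟩ := hk
    have hQ := h.of_equiv e
    by_cases h2 : n = 2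
    · subst h2
      obtain ⟨f⟩ := Cfsg.Agent.S0254.result (psl_two hQ)
      exact Or.inl ⟨e.trans f⟩
    by_cases h3 : n = 3
    · subst h3
      exact Or.inr (Or.inr (Or.inl ⟨F, inferInstance, inferInstance, psl_three hQ, ⟨e⟩⟩))
    exfalso
    obtain ⟨l, rfl⟩ : ∃ l, n = 2 + l := ⟨n - 2, by omega⟩
    obtain ⟨rfl, hF⟩ := psl_ge (by omega) hQ
    obtain ⟨f⟩ := Cfsg.Agent.S0256.result hF
    exact alt_ge le_rfl (hQ.of_equiv f)
  · obtain ⟨F, _, _, m, hm, hm2, ⟨e⟩⟩ := hk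
    exact (psp hm hm2 (h.of_equiv e)).elim
  · obtain ⟨F, _, _, n, q, hF, hn, hn2, ⟨e⟩⟩ := hk
    have hQ := h.of_equiv e
    by_cases h3 : n = 3
    · subst h3
      have h5 := psu_three hF (fun h => hn2 ⟨rfl, h⟩) hQ
      subst h5
      exact Or.inr (Or.inr (Or.inr (Or.inl ⟨F, inferInstance, inferInstance, by rw [hF]; norm_num, ⟨e⟩⟩)))
    exfalso
    obtain ⟨l, rfl⟩ : ∃ l, n = 2 + l := ⟨n - 2, by omega⟩
    exact psu_ge hF (by omega) hQ
  · obtain ⟨F, _, _, m, hm, ho, ⟨e⟩⟩ := hk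
    exact (oodd hm ho (h.of_equiv e)).elim
  · obtain ⟨F, _, _, m, hm, ⟨e⟩⟩ := hk
    exact (oplus hm (h.of_equiv e)).elim
  · obtain ⟨F, _, _, m, a, b, hm, hab, ⟨e⟩⟩ := hk
    exact (ominus hm hab (h.of_equiv e)).elim
  · exact (exc T h hk).elim
  · rcases hk with hk | hk | hk | hk | hk | hk | hk | hk | hk | hk | hk | hk | hk | hk | hk | hk | hk | hk | hk | hk |
      hk | hk | hk | hk | hk | hk
    · exact absurd hk hM11
    · exact (spor_of T h (.m12, 95040) (by decide) hk (by decide)).elim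
    · exact Or.inr (Or.inr (Or.inr (Or.inr hk)))
    · exact absurd hk hM23
    · exact (spor_of T h (.m24, 244823040) (by decide) hk (by decide)).elim
    · exact (spor_of T h (.j1, 175560) (by decide) hk (by decide)).elim
    · exact (spor_of T h (.j2, 604800) (by decide) hk (by decide)).elim
    · exact (spor_of T h (.j3, 50232960) (by decide) hk (by decide)).elim
    · exact (spor_of T h (.j4, 86775571046077562880) (by decide) hk (by decide)).elim
    · exact (spor_of T h (.co1, 4157776806543360000) (by decide) hk (by decide)).elim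
    · exact (spor_of T h (.co2, 42305421312000) (by decide) hk (by decide)).elim
    · exact (spor_of T h (.co3, 495766656000) (by decide) hk (by decide)).elim
    · exact (spor_of T h (.mcl, 898128000) (by decide) hk (by decide)).elim
    · exact absurd hk hHS
    · exact (spor_of T h (.suz, 448345497600) (by decide) hk (by decide)).elim
    · exact (spor_of T h (.he, 4030387200) (by decide) hk (by decide)).elim
    · exact (spor_of T h (.ru, 145926144000) (by decide) hk (by decide)).elim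
    · exact (spor_of T h (.on, 460815505920) (by decide) hk (by decide)).elim
    · exact (spor_of T h (.ly, 51765179004000000) (by decide) hk (by decide)).elim
    · exact (spor_of T h (.fi22, 64561751654400) (by decide) hk (by decide)).elim
    · exact (spor_of T h (.fi23, 4089470473293004800) (by decide) hk (by decide)).elim
    · exact (spor_of T h (.fi24, 1255205709190661721292800) (by decide) hk (by decide)).elim
    · exact (spor_of T h (.hn, 273030912000000) (by decide) hk (by decide)).elim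
    · exact (spor_of T h (.th, 90745943887872000) (by decide) hk (by decide)).elim
    · exact (spor_of T h (.b, 4154781481226426191177580544000000) (by decide) hk (by decide)).elim
    · exact (spor_of T h (.m, 808017424794512875886459904961710757005754368000000000) (by decide) hk (by decide)).elim

end Cfsg.Agent.H322.Cent
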