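import Cfsg.Agent.H322.Cent.Uni
import Cfsg.Agent.Sigma.Symp
import Cfsg.Agent.OrdDiv.Main
import Cfsg.Agent.S0254
import Cfsg.Agent.S0256

/-!
# The other families
-/

set_option autoImplicit false

namespace Cfsg.Agent.H322.Cent

open Matrix Cfsg.Agent.OrdDiv

universe u

/-! ### arithmetic -/

theorem sq_form {q : ℕ} (h3 : ¬ 3 ∣ q) : ∃ k, q ^ 2 = 3 * k + 1 := by
  have h : q ^ 2 % 3 = 1 := by
    have h1 : q % 3 = 1 ∨ q % 3 = 2 := by omega
    rcases h1 with h1 | h1 <;> rw [Nat.pow_mod, h1]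
  exact ⟨q ^ 2 / 3, by omega⟩

theorem a27 {q : ℕ} (h3 : ¬ 3 ∣ q) : 27 ∣ (q ^ 2 - 1) * (q ^ 6 - 1) := by
  obtain ⟨k, hk⟩ := sq_form h3
  have h6 : q ^ 6 = (3 * k + 1) ^ 3 := by rw [← hk]; ring
  rw [h6, hk, Nat.add_sub_cancel]
  have h7 : (3 * k + 1) ^ 3 - 1 = 9 * (3 * k ^ 3 + 3 * k ^ 2 + k) := by
    rw [Nat.sub_eq_of_eq_add]; ring
  rw [h7]
  exact ⟨k * (3 * k ^ 3 + 3 * k ^ 2 + k), by ring⟩

theorem a3 {q : ℕ} (h3 : ¬ 3 ∣ q) (n : ℕ) : 3 ∣ q ^ (2 * n) - 1 := by
  obtain ⟨k, hk⟩ := sq_form h3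
  have h1 := Nat.sub_dvd_pow_sub_pow (q ^ 2) 1 n
  rw [one_pow, ← pow_mul, hk, Nat.add_sub_cancel] at h1
  exact (Dvd.intro k rfl).trans h1

theorem d27 {q e m : ℕ} (he : 3 ≤ e) (hm : 3 ≤ m) : 27 ∣ q ^ e * ∏ i ∈ Finset.range m, (q ^ (2 * (i + 1)) - 1) := by
  by_cases h3 : 3 ∣ q
  · apply Dvd.dvd.mul_right
    rw [show (27 : ℕ) = 3 ^ 3 by norm_num]
    exact (pow_dvd_pow_of_dvd h3 3).trans (pow_dvd_pow q he)
  · apply Dvd.dvd.mul_left
    refine (a27 h3).trans ?_
    have h2 := Finset.prod_dvd_prod_of_subset ({0, 2} : Finset ℕ) (Finset.range m)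
      (fun i => q ^ (2 * (i + 1)) - 1) (by
        intro x hx
        rw [Finset.mem_insert, Finset.mem_singleton] at hx
        rw [Finset.mem_range]
        omega)
    rwa [Finset.prod_pair (by norm_num)] at h2

theorem of_gcd {g c : ℕ} (hg : Nat.Coprime 27 g) (h : 27 ∣ g * c) : 27 ∣ c := hg.dvd_of_dvd_mul_left h

theorem of_gcd_three {g c : ℕ} (hg : g ∣ 3) (h : 81 ∣ g * c) : 27 ∣ c := by
  obtain ⟨k, hk⟩ := hg
  have h1 : 81 ∣ 3 * c := by
    rw [hk, mul_comm g k, mul_assoc]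
    exact h.mul_left k
  obtain ⟨w, hw⟩ := h1
  exact ⟨w, by omega⟩

/-! ### the alternating groups -/

theorem alt_ge {n : ℕ} (hn : 8 ≤ n) (h : Q (alternatingGroup (Fin n))) : False := by
  have : Fact (Nat.Prime 3) := ⟨Nat.prime_three⟩
  have : Fact (Nat.Prime 5) := ⟨Nat.prime_five⟩
  let ι : Fin 8 ↪ Fin n := Fin.castLEEmb hn
  let f : Equiv.Perm (Fin 8) →* Equiv.Perm (Fin n) := Equiv.Perm.viaEmbeddingHom ι
  have hf : Function.Injective f := Equiv.Perm.viaEmbeddingHom_injective ι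
  have hsign : ∀ σ, Equiv.Perm.sign (f σ) = Equiv.Perm.sign σ := fun σ => by
    classical
    change Equiv.Perm.sign (Equiv.Perm.viaEmbeddingHom ι σ) = _
    rw [Equiv.Perm.viaEmbeddingHom_apply, Equiv.Perm.viaEmbedding]
    convert Equiv.Perm.sign_extendDomain σ (Equiv.ofInjective ι.1 ι.2)
  let s : Equiv.Perm (Fin 8) := c[0, 1, 2]
  let y : Equiv.Perm (Fin 8) := c[3, 4, 5, 6, 7]
  have hs : orderOf s = 3 := orderOf_eq_prime (by decide) (by decide)
  have hy : orderOf y = 5 := orderOf_eq_prime (by decide +kernel) (by decide)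
  have hsy : s * y = y * s := by decide
  have hss : Equiv.Perm.sign s = 1 := by decide
  have hys : Equiv.Perm.sign y = 1 := by decide
  let s' : alternatingGroup (Fin n) := ⟨f s, by rw [Equiv.Perm.mem_alternatingGroup, hsign, hss]⟩
  let y' : alternatingGroup (Fin n) := ⟨f y, by rw [Equiv.Perm.mem_alternatingGroup, hsign, hys]⟩
  have hs' : orderOf s' = 3 := by
    rw [← Subgroup.orderOf_coe]
    change orderOf (f s) = 3
    rw [orderOf_injective f hf, hs]
  have hy' : orderOf y' = 5 := by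
    rw [← Subgroup.orderOf_coe]
    change orderOf (f y) = 5
    rw [orderOf_injective f hf, hy]
  have h1 := h.orderOf_dvd hs' (y := y') (by
    apply Subtype.ext
    change f s * f y = f y * f s
    rw [← map_mul, hsy, map_mul])
  rw [hy'] at h1
  norm_num at h1

theorem card_alt {n : ℕ} (hn : 2 ≤ n) : 2 * Nat.card (alternatingGroup (Fin n)) = n.factorial := by
  have : Nontrivial (Fin n) := Fin.nontrivial_iff_two_le.2 hn
  rw [two_mul_nat_card_alternatingGroup, Nat.card_perm, Nat.card_fin]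

theorem alt {n : ℕ} (hn : 5 ≤ n) (h : Q (alternatingGroup (Fin n))) : n = 6 ∨ n = 7 := by
  by_cases h8 : 8 ≤ n
  · exact (alt_ge h8 h).elim
  have h5 : n ≠ 5 := by
    rintro rfl
    have h1 := card_alt (n := 5) (by norm_num)
    have h2 := h.nine_dvd
    have h3 : (5 : ℕ).factorial = 120 := by decide
    rw [h3] at h1
    have h4 : Nat.card (alternatingGroup (Fin 5)) = 60 := by omega
    rw [h4] at h2
    norm_num at h2
  omega

/-! ### the symplectic groups -/

/-- the factors -/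
def spf (F : Type*) [Field F] (i : Fin 2) : SpecialLinearGroup (Fin 2) F →* PSp 2 F :=
  (QuotientGroup.mk' _).comp ((Cfsg.Agent.Sigma.Symp.emb 2 F).comp
    (MonoidHom.mulSingle (fun _ : Fin 2 => SpecialLinearGroup (Fin 2) F) i))

theorem spf_injective (F : Type*) [Field F] (i : Fin 2) : Function.Injective (spf F i) := by
  rw [injective_iff_map_eq_one]
  intro A hA
  have h1 : Cfsg.Agent.Sigma.Symp.emb 2 F (Pi.mulSingle i A) ∈ Subgroup.center _ := (QuotientGroup.eq_one_iff _).1 hA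
  obtain ⟨a, ha⟩ := (Cfsg.Agent.LieClassical.SympCenter.mem_center_iff 2 _).1 h1
  obtain ⟨j, hj⟩ : ∃ j : Fin 2, j ≠ i := by
    fin_cases i
    · exact ⟨1, by decide⟩
    · exact ⟨0, by decide⟩
  have e1 : ∀ k l, fromBlocks (diagonal fun i' => (Pi.mulSingle i A : Fin 2 → SpecialLinearGroup (Fin 2) F) i' 0 0)
      (diagonal fun i' => (Pi.mulSingle i A : Fin 2 → SpecialLinearGroup (Fin 2) F) i' 0 1)
      (diagonal fun i' => (Pi.mulSingle i A : Fin 2 → SpecialLinearGroup (Fin 2) F) i' 1 0)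
      (diagonal fun i' => (Pi.mulSingle i A : Fin 2 → SpecialLinearGroup (Fin 2) F) i' 1 1) k l =
      (a • (1 : Matrix (Fin 2 ⊕ Fin 2) (Fin 2 ⊕ Fin 2) F)) k l := fun k l => congrFun (congrFun ha k) l
  have e2 := e1 (Sum.inl j) (Sum.inl j)
  rw [fromBlocks_apply₁₁, diagonal_apply_eq, Pi.mulSingle_eq_of_ne hj, Matrix.smul_apply, one_apply_eq, smul_eq_mul,
    mul_one] at e2
  have ha1 : a = 1 := by rw [← e2]; rfl
  subst ha1
  have h2 : Cfsg.Agent.Sigma.Symp.emb 2 F (Pi.mulSingle i A) = Cfsg.Agent.Sigma.Symp.emb 2 F 1 := by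
    rw [map_one]
    apply Subtype.ext
    rw [ha, one_smul]
    rfl
  have h3 := Cfsg.Agent.Sigma.Symp.emb_injective 2 h2
  exact Pi.mulSingle_injective i (h3.trans (Pi.mulSingle_one i).symm)

theorem spf_comm (F : Type*) [Field F] (A B : SpecialLinearGroup (Fin 2) F) :
    spf F 0 A * spf F 1 B = spf F 1 B * spf F 0 A := by
  have h := (Pi.mulSingle_commute (f := fun _ : Fin 2 => SpecialLinearGroup (Fin 2) F)
    (show (0 : Fin 2) ≠ 1 by decide) A B).eq
  change QuotientGroup.mk' _ (Cfsg.Agent.Sigma.Symp.emb 2 F (Pi.mulSingle 0 A)) *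
      QuotientGroup.mk' _ (Cfsg.Agent.Sigma.Symp.emb 2 F (Pi.mulSingle 1 B)) =
    QuotientGroup.mk' _ (Cfsg.Agent.Sigma.Symp.emb 2 F (Pi.mulSingle 1 B)) *
      QuotientGroup.mk' _ (Cfsg.Agent.Sigma.Symp.emb 2 F (Pi.mulSingle 0 A))
  rw [← map_mul, ← map_mul, h, map_mul, map_mul]

theorem psp {F : Type*} [Field F] [Fintype F] {m : ℕ} (hm : 2 ≤ m) (hm2 : m = 2 → 3 ≤ Fintype.card F)
    (h : Q (PSp m F)) : False := by
  by_cases h3 : 3 ≤ m
  · apply h.not27
    have h1 := Cfsg.Agent.S0245.result (F := F) rfl m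
    have h2 := Cfsg.Agent.S0246.result (F := F) rfl m (by omega)
    have h4 := Subgroup.card_eq_card_quotient_mul_card_subgroup
      (Subgroup.center (Matrix.symplecticGroup (Fin m) F))
    rw [h1, h2] at h4
    have hc : Nat.Coprime 27 (Nat.gcd 2 (Fintype.card F - 1)) :=
      Nat.Coprime.coprime_dvd_right (Nat.gcd_dvd_left _ _) (by norm_num)
    apply of_gcd hc
    rw [mul_comm, ← h4]
    have hmm : 3 ≤ m ^ 2 := by nlinarith
    exact d27 hmm h3
  · have hm' : m = 2 := by omega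
    subst hm'
    obtain ⟨a, ha⟩ := exists_three (F := F)
    have hs : orderOf (spf F 0 a) = 3 := by rw [orderOf_injective _ (spf_injective F 0), ha]
    have h1 := h.dvd hs (spf F 1) (spf_injective F 1) fun k => spf_comm F a k
    have h2 := (small_SL (F := F) le_rfl h1).2
    have h5 := hm2 rfl
    omega

/-! ### the orthogonal groups -/

theorem oodd {F : Type*} [Field F] [Fintype F] {m : ℕ} (hm : 3 ≤ m) (ho : Odd (Fintype.card F))
    (h : Q (POmega F (quadFormOdd m F))) : False := by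
  apply h.not27
  have h1 := Cfsg.Agent.S0292.result (F := F) rfl ho m hm
  apply of_gcd (g := 2) (by norm_num)
  rw [h1]
  have hmm : 3 ≤ m ^ 2 := by nlinarith
  exact d27 hmm hm

theorem cop4 {g : ℕ} (hg : g ∣ 4) : Nat.Coprime 27 g := Nat.Coprime.coprime_dvd_right hg (by norm_num)

theorem oplus {F : Type*} [Field F] [Fintype F] {m : ℕ} (hm : 4 ≤ m)
    (h : Q (POmega F (quadFormPlus m F))) : False := by
  apply h.not27
  have h1 := Cfsg.Agent.S0293.result (F := F) rfl m hm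
  apply of_gcd (cop4 (Nat.gcd_dvd_left 4 _))
  rw [h1, mul_right_comm]
  apply Dvd.dvd.mul_right
  have hmm : 3 ≤ m * (m - 1) := by
    have := Nat.mul_le_mul hm (show 3 ≤ m - 1 by omega)
    omega
  exact d27 hmm (by omega)

theorem ominus {F : Type*} [Field F] [Fintype F] {m : ℕ} (hm : 4 ≤ m) {a b : F}
    (hab : ∀ z₁ z₂ : F, z₁ ^ 2 + a * z₁ * z₂ + b * z₂ ^ 2 = 0 → z₁ = 0 ∧ z₂ = 0)
    (h : Q (POmega F (quadFormMinus (m - 1) F a b))) : False := by
  apply h.not27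
  have h1 := Cfsg.Agent.S0294.result (F := F) rfl m hm a b hab
  apply of_gcd (cop4 (Nat.gcd_dvd_left 4 _))
  rw [h1, mul_right_comm]
  apply Dvd.dvd.mul_right
  have hmm : 3 ≤ m * (m - 1) := by
    have := Nat.mul_le_mul hm (show 3 ≤ m - 1 by omega)
    omega
  exact d27 hmm (by omega)

end Cfsg.Agent.H322.Cent
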